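import Cfsg.Agent.ClassicalGeometry.Sp4GraphAut
import Cfsg.Agent.LieClassical.SympCount
import Cfsg.Agent.Lib.FieldAutCard
import Cfsg.Agent.S0270

/-!
# S5175 (SP): facts on `Sp₄(K)`, `|K| = 2^n` (helper311)
-/

set_option autoImplicit false

namespace Cfsg.Agent.H311.SP

open Subgroup Matrix

variable {K : Type*} [Field K] [Fintype K]

theorem charP_two {n : ℕ} (hK : Fintype.card K = 2 ^ n) : CharP K 2 := by
  have h2 : Fact (Nat.Prime 2) := ⟨Nat.prime_two⟩
  have hn : n ≠ 0 := by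
    rintro rfl
    have := Fintype.one_lt_card (α := K)
    omega
  obtain ⟨p, hp⟩ := CharP.exists K
  obtain ⟨m, hp1, hm⟩ := FiniteField.card K p
  have h3 : p ∣ 2 ^ n := by
    rw [← hK, hm]
    exact dvd_pow_self p m.ne_zero
  have h4 : p = 2 := (Nat.prime_dvd_prime_iff_eq hp1 Nat.prime_two).1 (hp1.dvd_of_dvd_pow h3)
  rw [← h4]
  exact hp

theorem card_aut {n : ℕ} (hK : Fintype.card K = 2 ^ n) : Nat.card (K ≃+* K) = n := by
  have h2 : Fact (Nat.Prime 2) := ⟨Nat.prime_two⟩
  have hn : n ≠ 0 := by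
    rintro rfl
    have := Fintype.one_lt_card (α := K)
    omega
  exact Lib.FieldAutCard.card_ringAut (F := K) (p := 2) (f := n) (by omega) hK

theorem odd_card_subgroup {n : ℕ} (hK : Fintype.card K = 2 ^ n) (hn : Odd n) (Φ : Subgroup (K ≃+* K)) :
    Odd (Nat.card Φ) := by
  have h1 := Subgroup.card_subgroup_dvd_card Φ
  rw [card_aut hK] at h1
  exact Odd.of_dvd_nat hn h1

theorem card_sp4 {n : ℕ} (hK : Fintype.card K = 2 ^ n) :
    ∃ m, Odd m ∧ Nat.card (Matrix.symplecticGroup (Fin 2) K) = Fintype.card K ^ 4 * m := by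
  refine ⟨∏ i ∈ Finset.range 2, (Fintype.card K ^ (2 * (i + 1)) - 1), ?_, LieClassical.SympCount.card_symplecticGroup 2⟩
  have hn : n ≠ 0 := by
    rintro rfl
    have := Fintype.one_lt_card (α := K)
    omega
  rw [Finset.prod_range_succ, Finset.prod_range_one]
  have key : ∀ k, k ≠ 0 → Odd (Fintype.card K ^ k - 1) := by
    intro k hk
    refine Nat.Even.sub_odd (Nat.one_le_pow _ _ Fintype.card_pos) ?_ odd_one
    rw [hK, ← pow_mul]
    exact (Nat.even_pow.2 ⟨even_two, Nat.mul_ne_zero hn hk⟩)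
  exact (key _ (by norm_num)).mul (key _ (by norm_num))

/-- `Sp₄(K) ≅ PSp₄(K)` in characteristic 2 -/
noncomputable def spEquiv {n : ℕ} (hK : Fintype.card K = 2 ^ n) :
    Matrix.symplecticGroup (Fin 2) K ≃* Cfsg.PSp 2 K :=
  have := charP_two hK
  (QuotientGroup.quotientBot.symm).trans
    (QuotientGroup.quotientMulEquivOfEq (ClassicalGeometry.Sp4GraphAut.center_eq_bot (F := K) (m := 2) (by norm_num)).symm)

theorem spEquiv_apply {n : ℕ} (hK : Fintype.card K = 2 ^ n) (g : Matrix.symplecticGroup (Fin 2) K) :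
    spEquiv hK g = QuotientGroup.mk g := rfl

theorem simple_sp4 {n : ℕ} (hK : Fintype.card K = 2 ^ n) (h4 : 4 ≤ Fintype.card K) :
    IsSimpleGroup (Matrix.symplecticGroup (Fin 2) K) := by
  have h : IsSimpleGroup (Cfsg.PSp 2 K) := S0270.result 2 le_rfl (fun _ => by omega)
  have : Nontrivial (Matrix.symplecticGroup (Fin 2) K) := (spEquiv hK).toEquiv.nontrivial
  exact IsSimpleGroup.isSimpleGroup_of_surjective (spEquiv hK).symm.toMonoidHom (spEquiv hK).symm.surjective

theorem not_comm_sp4 {n : ℕ} (hK : Fintype.card K = 2 ^ n) (h4 : 4 ≤ Fintype.card K) :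
    ¬ IsMulCommutative (Matrix.symplecticGroup (Fin 2) K) := by
  intro h
  have hs := simple_sp4 hK h4
  have hp := charP_two hK
  have h1 : center (Matrix.symplecticGroup (Fin 2) K) = ⊥ :=
    ClassicalGeometry.Sp4GraphAut.center_eq_bot (F := K) (m := 2) (by norm_num)
  have h2 : center (Matrix.symplecticGroup (Fin 2) K) = ⊤ := by
    rw [eq_top_iff]
    intro x _
    rw [mem_center_iff]
    intro g
    exact h.is_comm.comm g x
  rw [h1] at h2
  exact bot_ne_top h2

end Cfsg.Agent.H311.SP
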