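import Cfsg.Agent.Lib.AutSL2Out

/-!
# S5175 (SP): the normalizer of `SL₂(K)` acting on symmetric matrices (helper311)

`K` finite of characteristic 2, `|K| ≥ 4`. `K³ ∋ (u, v, w) ↔ [[w, v], [v, u]]`, `g` acts by `X ↦ g X gᵀ`.
An additive automorphism of `K³` normalising `SL₂(K)` is `X ↦ g φ(X) gᵀ` with `g ∈ GL₂(K)`, `φ ∈ Aut K`.
-/

set_option autoImplicit false

namespace Cfsg.Agent.H311.SP

open Matrix

variable {K : Type*} [Field K]

/-- the action of a matrix on the triples -/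
def actM (g : Matrix (Fin 2) (Fin 2) K) (X : K × K × K) : K × K × K :=
  (g 1 0 ^ 2 * X.2.2 + g 1 1 ^ 2 * X.1,
    (g 0 0 * g 1 1 + g 0 1 * g 1 0) * X.2.1 + g 0 0 * g 1 0 * X.2.2 + g 0 1 * g 1 1 * X.1,
    g 0 0 ^ 2 * X.2.2 + g 0 1 ^ 2 * X.1)

/-- a field automorphism on the triples -/
def fm (φ : K ≃+* K) (X : K × K × K) : K × K × K := (φ X.1, φ X.2.1, φ X.2.2)

theorem actM_add (g : Matrix (Fin 2) (Fin 2) K) (X Y : K × K × K) : actM g (X + Y) = actM g X + actM g Y := by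
  unfold actM
  ext <;> simp <;> ring

theorem actM_one (X : K × K × K) : actM (1 : Matrix (Fin 2) (Fin 2) K) X = X := by
  unfold actM
  ext <;> simp

theorem actM_mul [CharP K 2] (g h : Matrix (Fin 2) (Fin 2) K) (X : K × K × K) :
    actM (g * h) X = actM g (actM h X) := by
  have h2 : (2 : K) = 0 := CharTwo.two_eq_zero
  obtain ⟨u, v, w⟩ := X
  unfold actM
  simp only [Matrix.mul_apply, Fin.sum_univ_two]
  refine Prod.ext ?_ (Prod.ext ?_ ?_)
  · simp only
    linear_combination (g 1 0 * h 0 0 * g 1 1 * h 1 0 * w + g 1 0 * h 0 1 * g 1 1 * h 1 1 * u) * h2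
  · simp only
    linear_combination (g 0 0 * h 0 0 * g 1 0 * h 0 1 * v + g 0 1 * h 1 0 * g 1 1 * h 1 1 * v) * h2
  · simp only
    linear_combination (g 0 0 * h 0 0 * g 0 1 * h 1 0 * w + g 0 0 * h 0 1 * g 0 1 * h 1 1 * u) * h2

theorem fm_actM (φ : K ≃+* K) (g : Matrix (Fin 2) (Fin 2) K) (X : K × K × K) :
    fm φ (actM g X) = actM (g.map φ) (fm φ X) := by
  unfold fm actM
  simp

theorem fm_add (φ : K ≃+* K) (X Y : K × K × K) : fm φ (X + Y) = fm φ X + fm φ Y := by
  unfold fm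
  ext <;> simp

theorem fm_symm (φ : K ≃+* K) (X : K × K × K) : fm φ (fm φ.symm X) = X := by
  unfold fm
  simp

theorem actM_inj [CharP K 2] {g h : SpecialLinearGroup (Fin 2) K}
    (H : ∀ X, actM (g : Matrix (Fin 2) (Fin 2) K) X = actM (h : Matrix (Fin 2) (Fin 2) K) X) : g = h := by
  have h1 := H (0, 0, 1)
  have h2 := H (1, 0, 0)
  unfold actM at h1 h2
  simp only [mul_zero, mul_one, add_zero, zero_add, Prod.mk.injEq] at h1 h2
  apply Subtype.ext
  ext i j
  fin_cases i <;> fin_cases j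
  · exact CharTwo.sq_injective h1.2.2
  · exact CharTwo.sq_injective h2.2.2
  · exact CharTwo.sq_injective h1.1
  · exact CharTwo.sq_injective h2.1

/-! ### additive maps commuting with `SL₂(K)` -/

theorem exists_sq_eq [Finite K] [CharP K 2] (c : K) : ∃ m : K, m ^ 2 = c := by
  obtain ⟨m, hm⟩ := (Finite.injective_iff_surjective.1 (CharTwo.sq_injective (R := K))) c
  exact ⟨m, hm⟩

/-- an additive map commuting with `SL₂(K)` is a scalar -/
theorem scalar_of_comm [Finite K] [CharP K 2] (h4 : ∃ l : K, l ≠ 0 ∧ l ≠ 1) (d : K × K × K → K × K × K)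
    (hadd : ∀ X Y, d (X + Y) = d X + d Y)
    (hc : ∀ (g : SpecialLinearGroup (Fin 2) K) X, d (actM (g : Matrix (Fin 2) (Fin 2) K) X) =
      actM (g : Matrix (Fin 2) (Fin 2) K) (d X)) :
    ∃ c : K, ∀ u v w : K, d (u, v, w) = (c * u, c * v, c * w) := by
  have h2 : ∀ z : K, z + z = 0 := CharTwo.add_self_eq_zero
  -- the torus
  have ht : ∀ l : K, l ≠ 0 → ∀ X, d (l⁻¹ ^ 2 * X.1, X.2.1, l ^ 2 * X.2.2) =
      (l⁻¹ ^ 2 * (d X).1, (d X).2.1, l ^ 2 * (d X).2.2) := by
    intro l hl X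
    have h := hc ⟨!![l, 0; 0, l⁻¹], by simp [Matrix.det_fin_two, hl]⟩ X
    unfold actM at h
    simpa [hl] using h
  have hup : ∀ r : K, ∀ X, d (X.1, X.2.1 + r * X.1, X.2.2 + r ^ 2 * X.1) =
      ((d X).1, (d X).2.1 + r * (d X).1, (d X).2.2 + r ^ 2 * (d X).1) := by
    intro r X
    have h := hc ⟨!![1, r; 0, 1], by simp [Matrix.det_fin_two]⟩ X
    unfold actM at h
    simpa using h
  have hlo : ∀ s : K, ∀ X, d (s ^ 2 * X.2.2 + X.1, X.2.1 + s * X.2.2, X.2.2) =
      (s ^ 2 * (d X).2.2 + (d X).1, (d X).2.1 + s * (d X).2.2, (d X).2.2) := by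
    intro s X
    have h := hc ⟨!![1, 0; s, 1], by simp [Matrix.det_fin_two]⟩ X
    unfold actM at h
    simpa using h
  have hd0 : d 0 = 0 := by
    have h := hadd 0 0
    rw [add_zero] at h
    exact left_eq_add.1 h
  obtain ⟨l, hl0, hl1⟩ := h4
  have hl2 : l ^ 2 ≠ 1 := by
    intro h
    apply hl1
    have h3 : (l - 1) ^ 2 = 0 := by
      have h4 := h2 1
      have h5 := h2 l
      linear_combination h + h4 - h5
    have h4 := pow_eq_zero_iff (two_ne_zero) |>.1 h3
    exact sub_eq_zero.1 h4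
  have hl3 : l⁻¹ ^ 2 ≠ 1 := by
    intro h
    apply hl2
    rw [inv_pow, inv_eq_one] at h
    exact h
  -- the three coordinate subgroups
  have d2 : ∀ v : K, ∃ b : K, d (0, v, 0) = (0, b, 0) := by
    intro v
    have h := ht l hl0 (0, v, 0)
    simp only [mul_zero] at h
    rw [Prod.ext_iff, Prod.ext_iff] at h
    obtain ⟨h1, -, h3⟩ := h
    simp only at h1 h3
    refine ⟨(d (0, v, 0)).2.1, Prod.ext ?_ (Prod.ext rfl ?_)⟩
    · by_contra hne
      apply hl3
      have h5 : (l⁻¹ ^ 2 - 1) * (d (0, v, 0)).1 = 0 := by linear_combination -h1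
      rcases mul_eq_zero.1 h5 with h6 | h6
      · exact sub_eq_zero.1 h6
      · exact absurd h6 hne
    · by_contra hne
      apply hl2
      have h5 : (l ^ 2 - 1) * (d (0, v, 0)).2.2 = 0 := by linear_combination -h3
      rcases mul_eq_zero.1 h5 with h6 | h6
      · exact sub_eq_zero.1 h6
      · exact absurd h6 hne
  have d1 : ∀ u : K, (d (u, 0, 0)).2.2 = 0 := by
    intro u
    have h := hlo 1 (u, 0, 0)
    simp only [mul_zero, one_pow, one_mul, zero_add, add_zero] at h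
    rw [Prod.ext_iff] at h
    have h1 := h.1
    simp only at h1
    exact left_eq_add.1 (by rw [add_comm] at h1; exact h1)
  have d3 : ∀ w : K, (d (0, 0, w)).1 = 0 := by
    intro w
    have h := hup 1 (0, 0, w)
    simp only [mul_zero, one_pow, one_mul, add_zero] at h
    rw [Prod.ext_iff, Prod.ext_iff] at h
    have h1 := h.2.2
    simp only at h1
    exact left_eq_add.1 h1
  -- the second coordinate
  have e1 : ∀ u : K, (d (u, 0, 0)).2.1 = 0 := by
    have hk : ∀ x : K, x ≠ 0 → (d (x, 0, 0)).2.1 = (d (1, 0, 0)).2.1 := by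
      intro x hx
      obtain ⟨m, hm⟩ := exists_sq_eq x
      have hm0 : m ≠ 0 := by rintro rfl; apply hx; rw [← hm]; ring
      have h := ht m⁻¹ (inv_ne_zero hm0) (1, 0, 0)
      simp only [inv_inv, mul_one, mul_zero, hm] at h
      rw [h]
    have hs : (d (1, 0, 0)).2.1 = 0 := by
      have h5 : l + 1 ≠ 0 := by
        intro h6
        apply hl1
        have := h2 1
        linear_combination h6 - this
      have h7 : d (l + 1, 0, 0) = d (l, 0, 0) + d (1, 0, 0) := by
        rw [← hadd]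
        simp
      have h8 := hk _ h5
      rw [h7, Prod.snd_add, Prod.fst_add, hk l hl0] at h8
      exact left_eq_add.1 h8.symm
    intro u
    by_cases hu : u = 0
    · subst hu
      have : ((0 : K), (0 : K), (0 : K)) = 0 := rfl
      rw [this, hd0]; rfl
    · rw [hk u hu, hs]
  have e3 : ∀ w : K, (d (0, 0, w)).2.1 = 0 := by
    have hk : ∀ x : K, x ≠ 0 → (d (0, 0, x)).2.1 = (d (0, 0, 1)).2.1 := by
      intro x hx
      obtain ⟨m, hm⟩ := exists_sq_eq x
      have hm0 : m ≠ 0 := by rintro rfl; apply hx; rw [← hm]; ring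
      have h := ht m hm0 (0, 0, 1)
      simp only [mul_one, mul_zero, hm] at h
      rw [h]
    have hs : (d (0, 0, 1)).2.1 = 0 := by
      have h5 : l + 1 ≠ 0 := by
        intro h6
        apply hl1
        have := h2 1
        linear_combination h6 - this
      have h7 : d (0, 0, l + 1) = d (0, 0, l) + d (0, 0, 1) := by
        rw [← hadd]
        simp
      have h8 := hk _ h5
      rw [h7, Prod.snd_add, Prod.fst_add, hk l hl0] at h8
      exact left_eq_add.1 h8.symm
    intro u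
    by_cases hu : u = 0
    · subst hu
      have : ((0 : K), (0 : K), (0 : K)) = 0 := rfl
      rw [this, hd0]; rfl
    · rw [hk u hu, hs]
  -- the first coordinate
  set c := (d (1, 0, 0)).1 with hcdef
  have f1 : ∀ u : K, d (u, 0, 0) = (c * u, 0, 0) := by
    intro u
    refine Prod.ext ?_ (Prod.ext (e1 u) (d1 u))
    by_cases hu : u = 0
    · subst hu
      have : ((0 : K), (0 : K), (0 : K)) = 0 := rfl
      rw [this, hd0]; simp
    · obtain ⟨m, hm⟩ := exists_sq_eq u
      have hm0 : m ≠ 0 := by rintro rfl; apply hu; rw [← hm]; ring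
      have h := ht m⁻¹ (inv_ne_zero hm0) (1, 0, 0)
      simp only [inv_inv, mul_one, mul_zero, hm] at h
      rw [h]
      simp only
      rw [mul_comm]
  have hsum : ∀ u v w : K, d (u, v, w) = d (u, 0, 0) + d (0, v, 0) + d (0, 0, w) := by
    intro u v w
    rw [← hadd, ← hadd]
    simp
  have f2 : ∀ x : K, d (0, x, 0) = (0, c * x, 0) ∧ d (0, 0, x) = (0, 0, c * x) := by
    have key : ∀ u : K, ∀ r : K, d (0, r * u, 0) + d (0, 0, r ^ 2 * u) = (0, r * (c * u), r ^ 2 * (c * u)) := by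
      intro u r
      have h := hup r (u, 0, 0)
      simp only [zero_add] at h
      rw [f1 u, hsum, f1 u] at h
      simp only [zero_add] at h
      have h3 : d (0, r * u, 0) + d (0, 0, r ^ 2 * u) =
          ((c * u, r * (c * u), r ^ 2 * (c * u)) : K × K × K) - (c * u, 0, 0) := by
        rw [← h]; abel
      rw [h3]
      simp
    intro x
    obtain ⟨b, hb⟩ := d2 x
    have h := key x 1
    simp only [one_mul, one_pow] at h
    rw [Prod.ext_iff, Prod.ext_iff] at h
    obtain ⟨-, h1, h3⟩ := h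
    rw [Prod.snd_add, Prod.fst_add, e3, hb] at h1
    rw [Prod.snd_add, Prod.snd_add, hb] at h3
    simp only [add_zero, zero_add] at h1 h3
    exact ⟨by rw [hb, h1], Prod.ext (d3 x) (Prod.ext (e3 x) h3)⟩
  refine ⟨c, fun u v w => ?_⟩
  rw [hsum, f1, (f2 v).1, (f2 w).2]
  simp

/-- **additive automorphisms of `K³` normalising `SL₂(K)`** -/
theorem NE [Finite K] [CharP K 2] (h4 : ∃ l : K, l ≠ 0 ∧ l ≠ 1) (γ : K × K × K → K × K × K)
    (hbij : Function.Bijective γ) (hadd : ∀ X Y, γ (X + Y) = γ X + γ Y)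
    (h : ∀ g : SpecialLinearGroup (Fin 2) K, ∃ g1 : SpecialLinearGroup (Fin 2) K,
      ∀ X, γ (actM (g : Matrix (Fin 2) (Fin 2) K) X) = actM (g1 : Matrix (Fin 2) (Fin 2) K) (γ X)) :
    ∃ (g : GL (Fin 2) K) (φ : K ≃+* K), ∀ X, γ X = actM (g : Matrix (Fin 2) (Fin 2) K) (fm φ X) := by
  classical
  choose σ hσ using h
  have hmul : ∀ g k, σ (g * k) = σ g * σ k := by
    intro g k
    apply actM_inj
    intro Y
    obtain ⟨X, rfl⟩ := hbij.2 Y
    rw [← hσ]
    show γ (actM (g.1 * k.1) X) = actM ((σ g).1 * (σ k).1) (γ X)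
    rw [actM_mul, actM_mul, hσ, hσ]
  have hinj : Function.Injective σ := by
    intro g k hgk
    apply actM_inj
    intro X
    apply hbij.1
    rw [hσ, hσ, hgk]
  have : Finite (SpecialLinearGroup (Fin 2) K) := inferInstance
  let α : MulAut (SpecialLinearGroup (Fin 2) K) :=
    MulEquiv.ofBijective (MonoidHom.mk' σ hmul) ⟨hinj, Finite.injective_iff_surjective.1 hinj⟩
  obtain ⟨a, φ, hα⟩ := Cfsg.Agent.Lib.AutSL2Out.exists_eq α
  have hσ2 : ∀ g, (σ g : Matrix (Fin 2) (Fin 2) K) = a.1 * (g.1.map φ) * a⁻¹.1 := by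
    intro g
    have h1 : σ g = α g := rfl
    rw [h1, hα]
    rfl
  have ha1 : a⁻¹.1 * a.1 = 1 := by rw [← Units.val_mul, inv_mul_cancel, Units.val_one]
  have ha2 : a.1 * a⁻¹.1 = 1 := by rw [← Units.val_mul, mul_inv_cancel, Units.val_one]
  let d : K × K × K → K × K × K := fun X => fm φ.symm (actM a⁻¹.1 (γ X))
  have hγ : ∀ X, γ X = actM a.1 (fm φ (d X)) := by
    intro X
    show γ X = actM a.1 (fm φ (fm φ.symm (actM a⁻¹.1 (γ X))))
    rw [fm_symm, ← actM_mul, ha2, actM_one]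
  obtain ⟨c, hc⟩ := scalar_of_comm h4 d (fun X Y => by
      show fm φ.symm (actM a⁻¹.1 (γ (X + Y))) = _
      rw [hadd, actM_add, fm_add]) (fun g X => by
      show fm φ.symm (actM a⁻¹.1 (γ (actM g.1 X))) = actM g.1 (fm φ.symm (actM a⁻¹.1 (γ X)))
      rw [hσ, ← actM_mul, hσ2, ← Matrix.mul_assoc, ← Matrix.mul_assoc, ha1, Matrix.one_mul, actM_mul, fm_actM]
      congr 1
      ext i j
      simp)
  have hc0 : c ≠ 0 := by
    rintro rfl
    have h1 : γ (1, 0, 0) = γ (0, 0, 0) := by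
      rw [hγ, hγ, hc, hc]
      simp
    have h2 := hbij.1 h1
    simp at h2
  obtain ⟨m, hm⟩ := exists_sq_eq (φ c)
  have hm0 : m ≠ 0 := by
    rintro rfl
    apply hc0
    have : φ c = 0 := by rw [← hm]; ring
    exact (map_eq_zero φ).1 this
  refine ⟨a * (Matrix.GeneralLinearGroup.mkOfDetNeZero !![m, 0; 0, m] (by simp [Matrix.det_fin_two, hm0])), φ,
    fun X => ?_⟩
  obtain ⟨u, v, w⟩ := X
  rw [hγ, hc, Units.val_mul, actM_mul]
  congr 1
  show fm φ (c * u, c * v, c * w) = actM !![m, 0; 0, m] (fm φ (u, v, w))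
  unfold fm actM
  simp only [map_mul]
  refine Prod.ext ?_ (Prod.ext ?_ ?_)
  · show φ c * φ u = (0 : K) ^ 2 * φ w + m ^ 2 * φ u
    rw [hm]; ring
  · show φ c * φ v = (m * m + 0 * 0) * φ v + m * 0 * φ w + 0 * m * φ u
    rw [← hm]; ring
  · show φ c * φ w = m ^ 2 * φ w + (0 : K) ^ 2 * φ u
    rw [hm]; ring

/-- the action of `SL₂(K)` on the triples, explicitly -/
theorem actM_sl [CharP K 2] (g : SpecialLinearGroup (Fin 2) K) (u v w : K) :
    actM (g : Matrix (Fin 2) (Fin 2) K) (u, v, w) =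
      (g.1 1 0 ^ 2 * w + g.1 1 1 ^ 2 * u, v + g.1 0 0 * g.1 1 0 * w + g.1 0 1 * g.1 1 1 * u,
        g.1 0 0 ^ 2 * w + g.1 0 1 ^ 2 * u) := by
  have h2 : (2 : K) = 0 := CharTwo.two_eq_zero
  have h1 : g.1 0 0 * g.1 1 1 + g.1 0 1 * g.1 1 0 = 1 := by
    have h := g.2
    rw [Matrix.det_fin_two] at h
    linear_combination h + (g.1 0 1 * g.1 1 0) * h2
  show (_, (g.1 0 0 * g.1 1 1 + g.1 0 1 * g.1 1 0) * v + _ + _, _) = _
  rw [h1, one_mul]

/-- the same with `4 ≤ |K|` -/
theorem NE_card [Fintype K] [CharP K 2] (h4 : 4 ≤ Fintype.card K) (γ : K × K × K ≃+ K × K × K)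
    (h : ∀ g : SpecialLinearGroup (Fin 2) K, ∃ g1 : SpecialLinearGroup (Fin 2) K,
      ∀ X, γ (actM (g : Matrix (Fin 2) (Fin 2) K) X) = actM (g1 : Matrix (Fin 2) (Fin 2) K) (γ X)) :
    ∃ (g : GL (Fin 2) K) (φ : K ≃+* K), ∀ X, γ X = actM (g : Matrix (Fin 2) (Fin 2) K) (fm φ X) := by
  classical
  refine NE ?_ γ γ.bijective (map_add γ) h
  by_contra hne
  push Not at hne
  have h1 : Finset.univ ⊆ ({0, 1} : Finset K) := by
    intro l _
    rw [Finset.mem_insert, Finset.mem_singleton]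
    by_cases hl : l = 0
    · exact Or.inl hl
    · exact Or.inr (hne l hl)
  have h2 := Finset.card_le_card h1
  rw [Finset.card_univ] at h2
  have h3 : ({0, 1} : Finset K).card ≤ 2 := Finset.card_le_two
  omega

end Cfsg.Agent.H311.SP
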